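import Cfsg.Agent.H319.One.Base
import Cfsg.Agent.H634.ElAlt
import Mathlib.GroupTheory.Perm.Centralizer

/-!
# S4880, alternating groups
-/

set_option autoImplicit false

namespace Cfsg.Agent.H600.OneAlt

open Cfsg.Agent.H319.One

variable {p n : ℕ}

theorem card_cent_gen {G : Type*} [Group G] [Finite G] (A : Subgroup G) [A.Normal] (h4 : A.index ≤ 2) (g : A) :
    Nat.card (Subgroup.centralizer {g}) ≤ Nat.card (Subgroup.centralizer {(g : G)}) ∧
      Nat.card (Subgroup.centralizer {(g : G)}) ≤ 2 * Nat.card (Subgroup.centralizer {g}) := by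
  set H := Subgroup.centralizer {(g : G)} with hH
  have h1 : Nat.card (Subgroup.centralizer {g}) = Nat.card (A.subgroupOf H) := by
    refine Nat.card_congr ⟨fun y => ⟨⟨y.1.1, ?_⟩, ?_⟩, fun y => ⟨⟨y.1.1, y.2⟩, ?_⟩, fun y => ?_, fun y => ?_⟩
    · rw [hH, Subgroup.mem_centralizer_singleton_iff]
      exact congrArg Subtype.val (Subgroup.mem_centralizer_singleton_iff.1 y.2)
    · exact y.1.2
    · rw [Subgroup.mem_centralizer_singleton_iff]
      exact Subtype.ext (Subgroup.mem_centralizer_singleton_iff.1 y.1.2)
    · rfl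
    · rfl
  have h2 := (A.subgroupOf H).card_mul_index
  have h3 : (A.subgroupOf H).index ∣ A.index := Subgroup.relIndex_dvd_index_of_normal A H
  have h0 : 0 < A.index := Nat.pos_of_ne_zero Subgroup.index_ne_zero_of_finite
  have h5 : (A.subgroupOf H).index ≤ 2 := (Nat.le_of_dvd h0 h3).trans h4
  have h6 : 0 < (A.subgroupOf H).index := Nat.pos_of_ne_zero Subgroup.index_ne_zero_of_finite
  rw [h1]
  constructor <;> nlinarith

theorem card_cent {m : ℕ} (g : alternatingGroup (Fin m)) :
    Nat.card (Subgroup.centralizer {g}) ≤ Nat.card (Subgroup.centralizer {(g : Equiv.Perm (Fin m))}) ∧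
      Nat.card (Subgroup.centralizer {(g : Equiv.Perm (Fin m))}) ≤ 2 * Nat.card (Subgroup.centralizer {g}) := by
  refine card_cent_gen _ ?_ g
  rcases subsingleton_or_nontrivial (Fin m) with h | h
  · have : alternatingGroup (Fin m) = ⊤ := by
      have : Subsingleton (Equiv.Perm (Fin m)) := inferInstance
      exact Subsingleton.elim _ _
    rw [this, Subgroup.index_top]
    norm_num
  · exact le_of_eq alternatingGroup.index_eq_two

theorem card_perm {m k : ℕ} (hk : k ≠ 0) {g : Equiv.Perm (Fin m)} (hg : g.cycleType = Multiset.replicate k p) :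
    Nat.card (Subgroup.centralizer {g}) = (m - k * p).factorial * p ^ k * k.factorial := by
  rw [Equiv.Perm.nat_card_centralizer, hg, Multiset.sum_replicate, Multiset.prod_replicate, Fintype.card_fin,
    smul_eq_mul]
  congr 1
  have h1 : (Multiset.replicate k p).toFinset = {p} := by
    ext a
    rw [Multiset.mem_toFinset, Multiset.mem_replicate, Finset.mem_singleton]
    tauto
  rw [h1, Finset.prod_singleton, Multiset.count_replicate_self]

theorem row_alt [hp : Fact p.Prime] {m : ℕ} (h : Hyp p n ↥(alternatingGroup (Fin m))) : False := by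
  have h5 := h.five
  have hp2 : p ≠ 2 := by omega
  have h2p : 2 * p ≤ m := by
    by_contra hlt
    have hd : p ^ 2 ∣ Nat.card (alternatingGroup (Fin m)) := (pow_dvd_pow p h.two).trans h.dvd
    have hd' : p ^ 2 ∣ m.factorial := by
      have h4 : Nat.card (alternatingGroup (Fin m)) ∣ Nat.card (Equiv.Perm (Fin m)) := Subgroup.card_subgroup_dvd_card _
      rw [Nat.card_perm, Nat.card_eq_fintype_card, Nat.card_eq_fintype_card, Fintype.card_fin] at h4
      rw [Nat.card_eq_fintype_card] at hd
      exact hd.trans h4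
    have hlog : Nat.log p m < 2 := by
      apply Nat.log_lt_of_lt_pow'
      · norm_num
      · rw [pow_two]
        have : 2 * p ≤ p * p := Nat.mul_le_mul_right _ (by omega)
        omega
    rw [Nat.Prime.pow_dvd_factorial_iff hp.out hlog] at hd'
    have h5 : Finset.Ico 1 2 = {1} := rfl
    rw [h5, Finset.sum_singleton, pow_one] at hd'
    have h6 := (Nat.le_div_iff_mul_le hp.out.pos).1 hd'
    omega
  obtain ⟨x, hx, hxc⟩ := Cfsg.Agent.H634.El.exists_cycles (m := m) hp2 1 (by omega)
  obtain ⟨y, hy, hyc⟩ := Cfsg.Agent.H634.El.exists_cycles (m := m) hp2 2 (by omega)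
  have key : ∀ (g : alternatingGroup (Fin m)) (k : ℕ), k ≠ 0 →
      (g : Equiv.Perm (Fin m)).cycleType = Multiset.replicate k p → g ≠ 1 := by
    rintro g k hk hg rfl
    rw [Subgroup.coe_one, Equiv.Perm.cycleType_one] at hg
    have := congrArg Multiset.card hg
    rw [Multiset.card_replicate, Multiset.card_zero] at this
    omega
  have hox : orderOf x = p := orderOf_eq_prime hx (key x 1 one_ne_zero hxc)
  have hoy : orderOf y = p := orderOf_eq_prime hy (key y 2 two_ne_zero hyc)
  have h1 := h.card_centralizer hox hoy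
  have h2 := (card_cent x).2
  have h3 := (card_cent y).1
  rw [card_perm one_ne_zero hxc] at h2
  rw [card_perm two_ne_zero hyc] at h3
  obtain ⟨k, rfl⟩ := Nat.exists_eq_add_of_le h2p
  rw [show 2 * p + k - 1 * p = k + p by omega, pow_one, Nat.factorial_one, mul_one, h1] at h2
  rw [show 2 * p + k - 2 * p = k by omega] at h3
  have h4 : k.factorial * p.factorial ≤ (k + p).factorial :=
    Nat.le_of_dvd (Nat.factorial_pos _) (Nat.factorial_mul_factorial_dvd_factorial_add k p)
  obtain ⟨q, hq⟩ := Nat.exists_eq_add_of_le h5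
  have h6 : p.factorial = p * (q + 4).factorial := by
    rw [hq, show 5 + q = q + 4 + 1 by ring, Nat.factorial_succ]
  have h7 : (4 : ℕ).factorial ≤ (q + 4).factorial := Nat.factorial_le (by omega)
  rw [show (4 : ℕ).factorial = 24 from rfl] at h7
  have hk := Nat.factorial_pos k
  have hp0 := hp.out.pos
  have h8 : k.factorial * (p * 24) * p ≤ 2 * (k.factorial * p ^ 2 * 2) := by
    calc k.factorial * (p * 24) * p ≤ k.factorial * p.factorial * p := by
          rw [h6]
          gcongr
      _ ≤ (k + p).factorial * p := Nat.mul_le_mul_right _ h4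
      _ ≤ _ := h2
      _ ≤ _ := by
        have h9 : Nat.factorial 2 = 2 := rfl
        rw [h9] at h3
        exact Nat.mul_le_mul_left _ h3
  have h10 : 0 < k.factorial * p ^ 2 := by positivity
  nlinarith

end Cfsg.Agent.H600.OneAlt
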